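import Cfsg.Agent.H718.NBGen
import Cfsg.Agent.H133.OB.Alt
import Cfsg.Prelude.Def_Classification2

/-!
# Assembly of S5003 from the rows (helper718)
-/

set_option autoImplicit false

namespace Cfsg.Agent.H718.NBAsm

open Cfsg Cfsg.Agent.H7.NBp Cfsg.Agent.H718.NBIH Subgroup

universe u

/-- a row: the simple groups satisfying `P` have a nonprincipal `p`-block -/
def Row (p : ℕ) (P : (S : Type) → [Group S] → Prop) : Prop :=
  ∀ (S : Type) [Group S] [Finite S] [IsSimpleGroup S], P S → IH p (Nat.card S) → NB p S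

/-- all rows, except the alternating one -/
structure Rows (p : ℕ) : Prop where
  psl : Row p fun S _ => IsPSL S
  psp : Row p fun S _ => IsPSp S
  psu : Row p fun S _ => IsPSU S
  omo : Row p fun S _ => IsPOmegaOdd S
  omp : Row p fun S _ => IsPOmegaPlus S
  omm : Row p fun S _ => IsPOmegaMinus S
  g2 : Row p fun S _ => Lie.IsoChevG2 S
  f4 : Row p fun S _ => Lie.IsoF4 S
  e6 : Row p fun S _ => Lie.IsoChevE6 S
  e7 : Row p fun S _ => Lie.IsoE7 S
  e8 : Row p fun S _ => Lie.IsoE8 S
  te6 : Row p fun S _ => Lie.Iso2E6 S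
  td4 : Row p fun S _ => Lie.Iso3D4 S
  sz : Row p fun S _ => Lie.IsoSuzuki S
  ree : Row p fun S _ => Lie.IsoRee S
  tf4 : Row p fun S _ => Lie.Iso2F4 S
  tits : Row p fun S _ => Lie.IsoTits S
  m11 : Row p fun S _ => Spor.IsoM11 S
  m12 : Row p fun S _ => Spor.IsoM12 S
  m22 : Row p fun S _ => Spor.IsoM22 S
  m23 : Row p fun S _ => Spor.IsoM23 S
  m24 : Row p fun S _ => Spor.IsoM24 S
  j1 : Row p fun S _ => Spor.IsoJ1 S
  j2 : Row p fun S _ => Spor.IsoJ2 S
  j3 : Row p fun S _ => Spor.IsoJ3 S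
  j4 : Row p fun S _ => Spor.IsoJ4 S
  co1 : Row p fun S _ => Spor.IsoCo1 S
  co2 : Row p fun S _ => Spor.IsoCo2 S
  co3 : Row p fun S _ => Spor.IsoCo3 S
  mcl : Row p fun S _ => Spor.IsoMcL S
  hs : Row p fun S _ => Spor.IsoHS S
  suz : Row p fun S _ => Spor.IsoSuz S
  he : Row p fun S _ => Spor.IsoHe S
  ru : Row p fun S _ => Spor.IsoRu S
  on : Row p fun S _ => Spor.IsoON S
  ly : Row p fun S _ => Spor.IsoLy S
  fi22 : Row p fun S _ => Spor.IsoFi22 S
  fi23 : Row p fun S _ => Spor.IsoFi23 S
  fi24 : Row p fun S _ => Spor.IsoFi24' S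
  hn : Row p fun S _ => Spor.IsoHN S
  th : Row p fun S _ => Spor.IsoTh S
  b : Row p fun S _ => Spor.IsoB S
  m : Row p fun S _ => Spor.IsoM S

variable {p : ℕ} [hp : Fact p.Prime]

/-- the step of the induction -/
theorem step (h2 : p ≠ 2) (R : Rows p) (S : Type) [Group S] [Finite S] [IsSimpleGroup S]
    (hna : ¬ IsMulCommutative S) (ih : IH p (Nat.card S)) (h : IsKnownSimple' S) : NB p S := by
  rcases h with h | h | h | h | h | h | h | h | h | h
  · -- cyclic of prime order
    exfalso
    apply hna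
    have h1 : (Nat.card S).Prime := h
    have : Fact (Nat.card S).Prime := ⟨h1⟩
    have hc : IsCyclic S := isCyclic_of_prime_card (p := Nat.card S) rfl
    exact inferInstance
  · obtain ⟨n, hn, ⟨e⟩⟩ := h
    exact NB.iso e.symm (H133.OB.nb_alt hp.out h2 n hn)
  · exact R.psl S h ih
  · exact R.psp S h ih
  · exact R.psu S h ih
  · exact R.omo S h ih
  · exact R.omp S h ih
  · exact R.omm S h ih
  · rcases h with h | h | h | h | h | h | h | h | h | h | h
    · exact R.g2 S h ih
    · exact R.f4 S h ih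
    · exact R.e6 S h ih
    · exact R.e7 S h ih
    · exact R.e8 S h ih
    · exact R.te6 S h ih
    · exact R.td4 S h ih
    · exact R.sz S h ih
    · exact R.ree S h ih
    · exact R.tf4 S h ih
    · exact R.tits S h ih
  · rcases h with h | h | h | h | h | h | h | h | h | h | h | h | h | h | h | h | h | h | h | h |
      h | h | h | h | h | h
    · exact R.m11 S h ih
    · exact R.m12 S h ih
    · exact R.m22 S h ih
    · exact R.m23 S h ih
    · exact R.m24 S h ih
    · exact R.j1 S h ih
    · exact R.j2 S h ih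
    · exact R.j3 S h ih
    · exact R.j4 S h ih
    · exact R.co1 S h ih
    · exact R.co2 S h ih
    · exact R.co3 S h ih
    · exact R.mcl S h ih
    · exact R.hs S h ih
    · exact R.suz S h ih
    · exact R.he S h ih
    · exact R.ru S h ih
    · exact R.on S h ih
    · exact R.ly S h ih
    · exact R.fi22 S h ih
    · exact R.fi23 S h ih
    · exact R.fi24 S h ih
    · exact R.hn S h ih
    · exact R.th S h ih
    · exact R.b S h ih
    · exact R.m S h ih

/-- all simple groups in `Type` -/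
theorem ih_all (h2 : p ≠ 2) (R : Rows p)
    (hcfsg : ∀ (S : Type) [Group S] [Finite S] [IsSimpleGroup S], IsKnownSimple' S) (n : ℕ) :
    IH p n := by
  induction n with
  | zero => exact fun T _ _ _ _ h => absurd h (Nat.not_lt_zero _)
  | succ n ihn =>
    intro T _ _ _ hna hT
    exact step h2 R T hna (ihn.mono (Nat.lt_succ_iff.1 hT)) (hcfsg T)

/-- **all simple groups** -/
theorem main (h2 : p ≠ 2) (R : Rows p)
    (hcfsg : ∀ (S : Type) [Group S] [Finite S] [IsSimpleGroup S], IsKnownSimple' S)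
    (S : Type u) [Group S] [Finite S] [IsSimpleGroup S] (hna : ¬ IsMulCommutative S) : NB p S :=
  (ih_all h2 R hcfsg (Nat.card S + 1)).use hna (Nat.lt_succ_self _)

end Cfsg.Agent.H718.NBAsm
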