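import Cfsg.Agent.H718.NBIH
import Cfsg.Agent.SignalizersComponents.PConstrained
import Cfsg.Agent.SignalizersComponents.Components
import Cfsg.Agent.TwoFusion.FStarControl
import Cfsg.Agent.S4487

/-!
# S5002 from S5003 (helper718)

* `OneB.subnormal` : one `p`-block passes to subnormal subgroups;
* `OneB.no_component` : a group with one `p`-block whose smaller simple groups have `NB p` has no
  components;
* `OneB.fstar` : `F*(G) = O_p(G)`;
* `oneB_of_fstar` : the converse;
* `s5002` : the statement S5002 from `NB p S` for all finite nonabelian simple groups `S`.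
-/

set_option autoImplicit false

namespace Cfsg.Agent.H718.NBGen

open Cfsg Cfsg.Agent.H7.NBp Subgroup

universe u

section

variable {p : ℕ} [hp : Fact p.Prime] {G : Type u} [Group G] [Finite G] {M : Ideal AlgInt}

/-- one block passes to subnormal subgroups -/
theorem subnormal (hM : IsPModular p M) (h : OneB M G) {K : Subgroup G}
    (hK : K.IsSubnormal) : OneB M K := by
  induction hK with
  | top => exact OneB.iso (topEquiv (G := G)).symm h
  | step H K h_le hSubn hN ih =>
    have : (H.subgroupOf K).Normal := hN
    exact OneB.iso (subgroupOfEquivOfLe h_le) (OneB.normal hM ih (H.subgroupOf K))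

/-- the central quotient of a quasisimple group is not abelian -/
theorem not_comm_quot {Q : Type u} [Group Q] (hq : IsQuasisimple Q) :
    ¬ IsMulCommutative (Q ⧸ center Q) := by
  intro hc
  have := hq.1
  have hs := hq.2
  have hp : Group.IsPerfect (Q ⧸ center Q) := inferInstance
  have h2 : _root_.commutator (Q ⧸ center Q) = ⊥ := by
    rw [_root_.commutator_eq_bot_iff_center_eq_top, eq_top_iff]
    intro x _
    rw [mem_center_iff]
    intro g
    exact hc.is_comm.comm g x
  rw [hp.commutator_eq_top] at h2
  have h3 : Nontrivial (Q ⧸ center Q) := hs.toNontrivial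
  exact absurd h2.symm bot_ne_top

/-- one block: no components, if the smaller simple groups have more than one block -/
theorem no_component (hM : IsPModular p M) (h : OneB M G)
    (hall : ∀ K : Subgroup G, IsComponent K → NB p (K ⧸ center K)) {K : Subgroup G}
    (hK : IsComponent K) : False := by
  have h2 : OneB M K := subnormal hM h hK.1
  have h3 : OneB M (K ⧸ center K) := OneB.surjective hM h2 (QuotientGroup.mk' (center K))
    (QuotientGroup.mk'_surjective _) (by rw [QuotientGroup.ker_mk'])
  exact (hall K hK).not_oneB hM h3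

theorem pPrimeCore_eq_bot (hM : IsPModular p M) (h : OneB M G) : pPrimeCore p G = ⊥ := by
  have hn : (pPrimeCore p G).Normal := Lib.Cores.pPrimeCore_normal p
  refine OneB.eq_bot_of_pprime hM h (pPrimeCore p G) ?_
  have h1 := Lib.Cores.pPrimeCore_coprime (G := G) p
  intro h2
  have h3 := Nat.dvd_gcd h2 (dvd_refl p)
  rw [h1] at h3
  exact hp.out.one_lt.ne' (Nat.dvd_one.1 h3)

/-- one block: `F*(G) = O_p(G)` -/
theorem fstar (hM : IsPModular p M) (h : OneB M G)
    (hall : ∀ K : Subgroup G, IsComponent K → NB p (K ⧸ center K)) :
    generalizedFittingSubgroup G = pCore p G := by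
  have h1 := pPrimeCore_eq_bot hM h
  have h2 := SignalizersComponents.PConstrained.fittingSubgroup_eq_pCore_of_pPrimeCore_eq_bot p h1
  have h3 : layer G = ⊥ := by
    rw [layer, sSup_eq_bot]
    intro K hK
    exact (no_component hM h hall hK).elim
  rw [generalizedFittingSubgroup, h3, bot_sup_eq, h2]

/-- `F*(G) = O_p(G)`: one block -/
theorem oneB_of_fstar (hM : IsPModular p M) (h : generalizedFittingSubgroup G = pCore p G)
    (χ ψ : IrrCharacter G) : SameBlock M (χ : G → ℂ) (ψ : G → ℂ) := by
  have h1 : centralizer (pCore p G : Set G) ≤ pCore p G := by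
    rw [← h]
    exact (TwoFusion.FStarControl.centralizer_genFitting_le_fitting (H := G)).trans le_sup_right
  refine S4487.result p M hM ?_ h1 χ ψ
  have h2 := TwoFusion.FStarControl.pCore_le_centralizer_pPrimeCore (H := G) p
  have h3 : pPrimeCore p G ≤ pCore p G := by
    refine le_trans ?_ h1
    rw [le_centralizer_iff]
    exact h2
  have h4 := Lib.Cores.pCore_inf_pPrimeCore (G := G) p
  rw [eq_bot_iff, ← h4]
  exact le_inf h3 le_rfl

/-- **S5002** from S5003 -/
theorem s5002 (hall : ∀ (S : Type u) [Group S] [Finite S] [IsSimpleGroup S],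
      ¬ IsMulCommutative S → NB p S) (hM : IsPModular p M) :
    (∀ χ ψ : IrrCharacter G, SameBlock M (χ : G → ℂ) (ψ : G → ℂ)) ↔
      generalizedFittingSubgroup G = pCore p G := by
  constructor
  · intro h
    have h1 : OneB M G := fun χ => h (triv G) χ
    refine fstar hM h1 fun K hK => ?_
    have hs : IsSimpleGroup (K ⧸ center K) := hK.2.2
    exact hall _ (not_comm_quot hK.2)
  · intro h χ ψ
    exact oneB_of_fstar hM h χ ψ

/-- the centralisers of nontrivial `p`-subgroups in a minimal counterexample -/
theorem fstar_centralizer [IsSimpleGroup G] (hna : ¬ IsMulCommutative G) (hM : IsPModular p M)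
    (h : OneB M G) (ih : NBIH.IH p (Nat.card G)) (Q : Subgroup G) (hQ : IsPGroup p Q)
    (hQ1 : Q ≠ ⊥) :
    generalizedFittingSubgroup ↥(centralizer (Q : Set G)) = pCore p ↥(centralizer (Q : Set G)) := by
  have h1 := OneB.centralizer hM h Q hQ
  refine fstar hM h1 fun K hK => ?_
  have hs : IsSimpleGroup (K ⧸ center K) := hK.2.2
  refine ih.use (not_comm_quot hK.2) ?_
  have h2 : centralizer (Q : Set G) ≠ ⊤ := by
    intro h3
    have h4 : Q ≤ center G := by
      intro q hq
      rw [mem_center_iff]
      intro g
      have h5 : g ∈ centralizer (Q : Set G) := by rw [h3]; exact mem_top g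
      exact (mem_centralizer_iff.1 h5 q hq).symm
    rcases (inferInstance : IsSimpleGroup G).eq_bot_or_eq_top_of_normal (center G) inferInstance
      with h5 | h5
    · rw [h5, le_bot_iff] at h4
      exact hQ1 h4
    · apply hna
      refine ⟨⟨fun a b => ?_⟩⟩
      have h6 : b ∈ center G := by rw [h5]; exact mem_top b
      exact mem_center_iff.1 h6 a
  calc Nat.card (K ⧸ center K) ≤ Nat.card K := Nat.card_le_card_of_surjective _
        (QuotientGroup.mk_surjective)
    _ ≤ Nat.card ↥(centralizer (Q : Set G)) := Nat.card_le_card_of_injective _ K.subtype_injective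
    _ < Nat.card G := by
      refine lt_of_le_of_ne (Subgroup.card_le_card_group _) ?_
      intro h3
      exact h2 (Subgroup.eq_top_of_card_eq _ h3)

end

end Cfsg.Agent.H718.NBGen
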